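import Cfsg.Agent.Lib.Perm.Hall6
import Cfsg.Agent.Lib.BG.T03_7
import Cfsg.Agent.Lib.Frobenius.Compl
import Cfsg.Agent.Lib.OddChar.Three

/-!
Four-fold transitive groups with a Frobenius four-point stabiliser: basic notions
(`p`-elements, fixed point sets, induced permutation groups).
-/

set_option autoImplicit false

namespace Cfsg.Lib.FT4

open Subgroup MulAction Function Equiv Cfsg.Lib.BG Cfsg.Lib.Transfer Cfsg.Lib.Perm
open scoped Pointwise

variable {G Ω : Type*} [Group G] {p : ℕ}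

/-- `g` is a `p`-element. -/
def PE (p : ℕ) (g : G) : Prop := ∃ k : ℕ, g ^ p ^ k = 1

namespace PE
variable {g h : G}

theorem one : PE p (1 : G) := ⟨0, by simp⟩

theorem pow (hg : PE p g) (m : ℕ) : PE p (g ^ m) := by
  obtain ⟨k, hk⟩ := hg
  exact ⟨k, by rw [← pow_mul, mul_comm, pow_mul, hk, one_pow]⟩

theorem inv (hg : PE p g) : PE p g⁻¹ := by
  obtain ⟨k, hk⟩ := hg
  exact ⟨k, by rw [inv_pow, hk, inv_one]⟩

theorem conj (hg : PE p g) (h : G) : PE p (h * g * h⁻¹) := by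
  obtain ⟨k, hk⟩ := hg
  exact ⟨k, by rw [conj_pow, hk]; simp⟩

theorem conj' (hg : PE p g) (h : G) : PE p (h⁻¹ * g * h) := by
  simpa using hg.conj h⁻¹

theorem zp (hg : PE p g) : IsPGroup p (zpowers g) :=
  let ⟨_, hk⟩ := hg
  Inv.isPGroup_zpowers hk

theorem of_mem {P : Subgroup G} (hP : IsPGroup p P) (hg : g ∈ P) : PE p g :=
  let ⟨k, hk⟩ := hP ⟨g, hg⟩
  ⟨k, by simpa using congrArg Subtype.val hk⟩

theorem of_pow (hg : g ^ p = 1) : PE p g := ⟨1, by simpa using hg⟩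

theorem of_sq (hg : g * g = 1) : PE 2 g := of_pow (by rw [pow_two, hg])

theorem of_pow' {k : ℕ} (hg : PE p (g ^ p ^ k)) : PE p g := by
  obtain ⟨j, hj⟩ := hg
  exact ⟨k + j, by rw [pow_add, pow_mul, hj]⟩

theorem map {G' : Type*} [Group G'] (f : G →* G') (hg : PE p g) : PE p (f g) := by
  obtain ⟨k, hk⟩ := hg
  exact ⟨k, by rw [← map_pow, hk, map_one]⟩

theorem mul_comm' (hg : PE p g) (hh : PE p h) (e : g * h = h * g) : PE p (g * h) := by
  obtain ⟨k, hk⟩ := hg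
  obtain ⟨j, hj⟩ := hh
  refine ⟨k + j, ?_⟩
  rw [Commute.mul_pow e, pow_add, pow_mul, hk, mul_comm (p ^ k), pow_mul, hj]; simp

theorem eq_one_of_pow (hg : PE p g) {m : ℕ} (hm : m.Coprime p) (e : g ^ m = 1) : g = 1 := by
  obtain ⟨k, hk⟩ := hg
  have := Nat.eq_one_of_dvd_coprimes (hm.pow_right k) (orderOf_dvd_of_pow_eq_one e)
    (orderOf_dvd_of_pow_eq_one hk)
  exact orderOf_eq_one_iff.1 this

theorem eq_one {q : ℕ} (hg : PE p g) (hq : PE q g) (hpq : q.Coprime p) : g = 1 := by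
  obtain ⟨k, hk⟩ := hq
  exact hg.eq_one_of_pow (hpq.pow_left k) hk

theorem mem_of_pow (hg : PE p g) {m : ℕ} (hm : m.Coprime p) {Q : Subgroup G} (e : g ^ m ∈ Q) :
    g ∈ Q := by
  obtain ⟨k, hk⟩ := hg
  obtain ⟨j, hj⟩ := exists_pow_eq_self_of_coprime (x := g)
    ((hm.pow_right k).coprime_dvd_right (orderOf_dvd_of_pow_eq_one hk))
  rw [← hj]; exact pow_mem e j

/-- The last power outside a subgroup. -/
theorem exists_pow (hg : PE p g) {Q : Subgroup G} (h : g ∉ Q) :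
    ∃ k : ℕ, g ^ p ^ k ∉ Q ∧ (g ^ p ^ k) ^ p ∈ Q := by
  classical
  have hex : ∃ k, g ^ p ^ k ∈ Q := let ⟨k, hk⟩ := hg; ⟨k, hk ▸ one_mem Q⟩
  have h0 : Nat.find hex ≠ 0 := fun e => h (by simpa [e] using Nat.find_spec hex)
  obtain ⟨k, hk⟩ := Nat.exists_eq_succ_of_ne_zero h0
  refine ⟨k, Nat.find_min hex (by omega), ?_⟩
  have := Nat.find_spec hex
  rwa [hk, Nat.succ_eq_add_one, pow_succ, pow_mul] at this

theorem exists_ord (hg : PE p g) (h : g ≠ 1) : ∃ k : ℕ, g ^ p ^ k ≠ 1 ∧ (g ^ p ^ k) ^ p = 1 := by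
  simpa using hg.exists_pow (Q := ⊥) (by simpa using h)

theorem smul_eq [MulAction G Ω] (hg : PE p g) {m : ℕ} (hm : m.Coprime p) {x : Ω}
    (e : g ^ m • x = x) : g • x = x :=
  hg.mem_of_pow hm (Q := stabilizer G x) e

/-- A 2-element has no 3-cycle. -/
theorem no3 [MulAction G Ω] (hg : PE 2 g) {a b c : Ω} (h1 : g • a = b) (h2 : g • b = c)
    (h3 : g • c = a) : a = b := by
  rw [← h1, hg.smul_eq (m := 3) (by decide)]
  rw [pow_succ', pow_two, mul_smul, mul_smul, h1, h2, h3]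

/-- A 3-element has no 2-cycle. -/
theorem no2 [MulAction G Ω] (hg : PE 3 g) {a b : Ω} (h1 : g • a = b) (h2 : g • b = a) : a = b := by
  rw [← h1, hg.smul_eq (m := 2) (by decide)]
  rw [pow_two, mul_smul, h1, h2]

end PE

theorem pgroup_of_pe {P : Subgroup G} (h : ∀ g ∈ P, PE p g) : IsPGroup p P := fun g =>
  let ⟨k, hk⟩ := h g g.2
  ⟨k, Subtype.ext (by simpa using hk)⟩

/-- The `p`-part of an element. -/
theorem lift [Finite G] (hp : p.Prime) (g : G) : ∃ m : ℕ, PE p (g ^ m) ∧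
    ∀ (Q : Subgroup G) (j : ℕ), g ^ p ^ j ∈ Q → g⁻¹ * g ^ m ∈ Q := by
  obtain ⟨k, n, hn, e⟩ := Nat.exists_eq_pow_mul_and_not_dvd (orderOf_pos g).ne' p hp.ne_one
  have hc : n.Coprime (p ^ k) := ((hp.coprime_iff_not_dvd.2 hn).symm).pow_right k
  obtain ⟨m, h1, h2⟩ := Nat.chineseRemainder hc 0 1
  obtain ⟨c, rfl⟩ := (Nat.modEq_zero_iff_dvd.1 h1)
  refine ⟨n * c, ⟨k, ?_⟩, fun Q j hj => ?_⟩
  · rw [← pow_mul, mul_right_comm, mul_comm n, ← e, pow_mul, pow_orderOf_eq_one, one_pow]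
  · have h3 : (g⁻¹ * g ^ (n * c)) ^ n = 1 := by
      rw [(((Commute.refl g).pow_right _).inv_left).mul_pow, inv_pow, inv_mul_eq_one, ← pow_mul,
        pow_eq_pow_iff_modEq, e, mul_comm (p ^ k), mul_comm (n * c)]
      simpa using (h2.mul_left' n).symm
    have h4 : (g⁻¹ * g ^ (n * c)) ^ p ^ j ∈ Q := by
      rw [(((Commute.refl g).pow_right _).inv_left).mul_pow, inv_pow, ← pow_mul, mul_comm (n * c),
        pow_mul]
      exact mul_mem (inv_mem hj) (pow_mem hj _)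
    exact PE.mem_of_pow (p := n) (PE.of_pow h3) ((hp.coprime_iff_not_dvd.2 hn).pow_left j) h4

theorem lift_smul [Finite G] [MulAction G Ω] (hp : p.Prime) (g : G) : ∃ m : ℕ, PE p (g ^ m) ∧
    ∀ (x : Ω) (j : ℕ), g ^ p ^ j • x = x → g ^ m • x = g • x := by
  obtain ⟨m, h1, h2⟩ := lift hp g
  refine ⟨m, h1, fun x j hj => ?_⟩
  have := h2 (stabilizer G x) j hj
  rwa [mem_stabilizer_iff, mul_smul, inv_smul_eq_iff] at this

theorem pow_fix [MulAction G Ω] {g : G} {x : Ω} (h : g • x = x) (m : ℕ) : g ^ m • x = x :=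
  (stabilizer G x).pow_mem h m

theorem zp_fix [MulAction G Ω] {g u : G} {x : Ω} (h : g • x = x) (hu : u ∈ zpowers g) : u • x = x :=
  (zpowers_le.2 (show g ∈ stabilizer G x from h)) hu

theorem inv_fix [MulAction G Ω] {g : G} {x : Ω} (h : g • x = x) : g⁻¹ • x = x :=
  inv_smul_eq_iff.2 h.symm

theorem conj_fix [MulAction G Ω] {g : G} {x : Ω} (h : g • x = x) (c : G) :
    (c * g * c⁻¹) • c • x = c • x := by
  rw [mul_smul, inv_smul_smul, mul_smul, h]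

theorem conj_smul [MulAction G Ω] (g c : G) (x : Ω) : (c * g * c⁻¹) • c • x = c • g • x := by
  rw [mul_smul, inv_smul_smul, mul_smul]

theorem comm_fix [MulAction G Ω] {g c : G} {x : Ω} (e : c * g = g * c) (h : g • x = x) :
    g • c • x = c • x := by
  rw [← mul_smul, ← e, mul_smul, h]

variable [MulAction G Ω]

variable (G) in
/-- The pointwise stabiliser. -/
abbrev Lx (B : Finset Ω) : Subgroup G := fixingSubgroup G (B : Set Ω)

theorem mem_Lx {B : Finset Ω} {g : G} : g ∈ Lx G B ↔ ∀ x ∈ B, g • x = x := mem_fixing_iff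

theorem Lx_anti {B C : Finset Ω} (h : B ⊆ C) : Lx G C ≤ Lx G B :=
  fun _ hg => mem_Lx.2 fun x hx => mem_Lx.1 hg x (h hx)

section
variable [DecidableEq Ω]

theorem conj_mem_Lx {B : Finset Ω} {g : G} (hg : g ∈ Lx G B) (c : G) :
    c * g * c⁻¹ ∈ Lx G (c • B) := mem_Lx.2 fun x hx => by
  obtain ⟨y, hy, rfl⟩ := Finset.mem_smul_finset.1 hx
  exact conj_fix (mem_Lx.1 hg y hy) c

theorem conj_Lx (B : Finset Ω) (c : G) : c ⋆ Lx G B = Lx G (c • B) := by
  refine le_antisymm (conj_le_iff.2 fun g hg => conj_mem_Lx hg c) fun g hg => mem_conj.2 ?_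
  simpa using conj_mem_Lx hg c⁻¹

theorem smul_eq_of_maps {B : Finset Ω} {c : G} (h : ∀ x ∈ B, c • x ∈ B) : c • B = B :=
  Finset.eq_of_subset_of_card_le (fun x hx => by
    obtain ⟨y, hy, rfl⟩ := Finset.mem_smul_finset.1 hx
    exact h y hy) (by rw [Finset.card_smul_finset])

theorem inv_maps {B : Finset Ω} {c : G} (h : ∀ x ∈ B, c • x ∈ B) : ∀ x ∈ B, c⁻¹ • x ∈ B :=
  fun x hx => Finset.inv_smul_mem_iff.2 (by rwa [smul_eq_of_maps h])

theorem maps_not {B : Finset Ω} {c : G} (h : ∀ x ∈ B, c • x ∈ B) {x : Ω} (hx : x ∉ B) :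
    c • x ∉ B := fun e => hx (by simpa using inv_maps h _ e)

theorem norm_Lx {B : Finset Ω} {c : G} (h : ∀ x ∈ B, c • x ∈ B) : c ∈ 𝐍(Lx G B) :=
  norm_of_conj_eq (by rw [conj_Lx, smul_eq_of_maps h])

theorem mem_Lx_insert {B : Finset Ω} {a : Ω} {g : G} :
    g ∈ Lx G (insert a B) ↔ g • a = a ∧ g ∈ Lx G B := by
  simp [mem_Lx]

theorem exists_smul_set [Finite Ω] {k : ℕ} (h : IsMultiplyPretransitive G Ω k) {B C : Finset Ω}
    (hB : B.card = k) (hC : C.card = k) : ∃ g : G, g • B = C := by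
  have := Fintype.ofFinite Ω
  let e : B ≃ C := Finset.equivOfCardEq (hB.trans hC.symm)
  obtain ⟨g, hg⟩ := exists_smul_eq_of_card_eq h (ι := B) (by simpa using hB) Subtype.val
    (fun x => (e x : Ω)) Subtype.val_injective (Subtype.val_injective.comp e.injective)
  refine ⟨g, Finset.eq_of_subset_of_card_le (fun x hx => ?_) (by
    rw [Finset.card_smul_finset, hB, hC])⟩
  obtain ⟨y, hy, rfl⟩ := Finset.mem_smul_finset.1 hx
  exact (hg ⟨y, hy⟩).symm ▸ (e ⟨y, hy⟩).2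

end

variable (Ω) in
/-- The fixed points of a subgroup. -/
noncomputable def Fx [Fintype Ω] (Q : Subgroup G) : Finset Ω :=
  open Classical in Finset.univ.filter fun x => ∀ u ∈ Q, u • x = x

section
variable [Fintype Ω] {Q R : Subgroup G} {x : Ω} {g : G}

theorem mem_Fx : x ∈ Fx Ω Q ↔ ∀ u ∈ Q, u • x = x := by simp [Fx]

theorem mem_Fx_zp : x ∈ Fx Ω (zpowers g) ↔ g • x = x :=
  mem_Fx.trans ⟨fun h => h g (mem_zpowers g), fun h _ hu => zp_fix h hu⟩

theorem sub_Fx {B : Finset Ω} : B ⊆ Fx Ω Q ↔ Q ≤ Lx G B :=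
  ⟨fun h u hu => mem_Lx.2 fun _ hx => mem_Fx.1 (h hx) u hu,
    fun h x hx => mem_Fx.2 fun _ hu => mem_Lx.1 (h hu) x hx⟩

theorem le_Lx_Fx : Q ≤ Lx G (Fx Ω Q) := sub_Fx.1 subset_rfl

theorem Fx_anti (h : Q ≤ R) : Fx Ω R ⊆ Fx Ω Q := fun _ hx =>
  mem_Fx.2 fun u hu => mem_Fx.1 hx u (h hu)

theorem Fx_norm (hg : g ∈ 𝐍(Q)) (hx : x ∈ Fx Ω Q) : g • x ∈ Fx Ω Q :=
  mem_Fx.2 (smul_fixed_of_mem_normalizer hg (mem_Fx.1 hx))

theorem Fx_conj [DecidableEq Ω] (c : G) : Fx Ω (c ⋆ Q) = c • Fx Ω Q := by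
  ext x
  rw [← Finset.inv_smul_mem_iff, mem_Fx, mem_Fx]
  refine ⟨fun h u hu => ?_, fun h u hu => ?_⟩
  · have := h _ (conj_mem_conj.2 hu)
    rw [mul_smul, mul_smul, smul_eq_iff_eq_inv_smul] at this
    exact this
  · have := h _ (mem_conj.1 hu)
    rwa [mul_smul, smul_inv_smul, mul_smul, smul_left_cancel_iff] at this

theorem Fx_bot : Fx Ω (⊥ : Subgroup G) = Finset.univ := by
  ext x; simp [mem_Fx]

theorem card_mod [DecidableEq Ω] [Fact p.Prime] (hQ : IsPGroup p Q) {S : Finset Ω}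
    (h : ∀ u ∈ Q, ∀ x ∈ S, u • x ∈ S) : S.card ≡ (S ∩ Fx Ω Q).card [MOD p] := by
  have := ncard_modEq_fixed hQ (s := (S : Set Ω)) S.finite_toSet h
  rw [Set.ncard_coe_finset] at this
  convert this
  rw [← Set.ncard_coe_finset]
  congr 1
  ext x; simp [mem_Fx]

omit [Fintype Ω] in
theorem zp_maps [Finite G] {S : Finset Ω} (h : ∀ x ∈ S, g • x ∈ S) : ∀ u ∈ zpowers g, ∀ x ∈ S, u • x ∈ S := by
  intro u hu x hx
  obtain ⟨m, rfl⟩ := (mem_powers_iff_mem_zpowers.2 hu)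
  induction m with
  | zero => simpa using hx
  | succ m ih => simp only [pow_succ', mul_smul]; exact h _ (ih (pow_mem (mem_zpowers g) m))

theorem card_mod1 [Finite G] [DecidableEq Ω] [Fact p.Prime] (hg : PE p g) {S : Finset Ω}
    (h : ∀ x ∈ S, g • x ∈ S) : S.card ≡ (S ∩ Fx Ω (zpowers g)).card [MOD p] :=
  card_mod hg.zp (zp_maps h)

theorem card_mod_univ [Fact p.Prime] (hQ : IsPGroup p Q) :
    Fintype.card Ω ≡ (Fx Ω Q).card [MOD p] := by
  classical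
  simpa using card_mod hQ (S := (Finset.univ : Finset Ω)) (by simp)

theorem exists_fix [Fact p.Prime] (hQ : IsPGroup p Q) {S : Finset Ω}
    (h : ∀ u ∈ Q, ∀ x ∈ S, u • x ∈ S) (hd : ¬ p ∣ S.card) : ∃ x ∈ S, x ∈ Fx Ω Q := by
  obtain ⟨x, hx, h⟩ := exists_fixed_of_not_dvd hQ (s := (S : Set Ω)) h (by simpa using hd)
  exact ⟨x, hx, mem_Fx.2 h⟩

theorem exists_fix1 [Finite G] [Fact p.Prime] (hg : PE p g) {S : Finset Ω}
    (h : ∀ x ∈ S, g • x ∈ S) (hd : ¬ p ∣ S.card) : ∃ x ∈ S, g • x = x := by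
  obtain ⟨x, hx, h⟩ := exists_fix hg.zp (zp_maps h) hd
  exact ⟨x, hx, mem_Fx_zp.1 h⟩

end

/-- A `p`-element fixes every point of an invariant set with fewer than `p` points. -/
theorem PE.fix_small [Finite G] [Fact p.Prime] {g : G} (hg : PE p g) {S : Finset Ω}
    (h : ∀ x ∈ S, g • x ∈ S) (hc : S.card < p) {x : Ω} (hx : x ∈ S) : g • x = x := by
  classical
  have := Fintype.ofFinite G
  by_contra hne
  let T := S.filter fun y => g • y ≠ y
  have hT : ∀ u ∈ zpowers g, ∀ y ∈ (T : Set Ω), u • y ∈ (T : Set Ω) := by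
    intro u hu y hy
    obtain ⟨m, rfl⟩ := (mem_powers_iff_mem_zpowers.2 hu)
    clear hu
    induction m with
    | zero => simpa using hy
    | succ m ih =>
      simp only [pow_succ', mul_smul, T, Finset.coe_filter, Set.mem_ofPred_eq] at ih ⊢
      exact ⟨h _ ih.1, fun e => ih.2 (smul_left_cancel g e)⟩
  obtain ⟨y, hy, hy'⟩ := exists_fixed_of_not_dvd hg.zp hT (by
    rw [Set.ncard_coe_finset]
    exact Nat.not_dvd_of_pos_of_lt (Finset.card_pos.2 ⟨x, by simp [T, hx, hne]⟩)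
      (lt_of_le_of_lt (Finset.card_filter_le _ _) hc))
  exact (Finset.mem_filter.1 hy).2 (hy' g (mem_zpowers g))

/-- A semiregular subgroup has order dividing the size of the set. -/
theorem card_dvd_of_free {Q : Subgroup G} {S : Finset Ω} (h : ∀ u ∈ Q, ∀ x ∈ S, u • x ∈ S)
    (hf : ∀ u ∈ Q, ∀ x ∈ S, u • x = x → u = 1) : Nat.card Q ∣ S.card := by
  let M : SubMulAction Q Ω := ⟨S, fun u {x} hx => h u u.2 x hx⟩
  have := Frobenius.card_dvd_card_of_free Q M fun a x e =>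
    Subtype.ext (hf a a.2 x x.2 (congrArg Subtype.val e))
  rwa [show Nat.card M = S.card from Nat.card_eq_finsetCard S] at this

/-- Orbit-stabiliser for subgroups. -/
theorem relIndex_eq_card {N M : Subgroup G} {a : Ω} {S : Finset Ω}
    (h : ∀ x, x ∈ S ↔ ∃ g ∈ N, g • a = x) (hM : ∀ g ∈ N, g ∈ M ↔ g • a = a) :
    M.relIndex N = S.card := by
  have : M.subgroupOf N = stabilizer N a := by
    ext g; rw [mem_subgroupOf, hM g g.2]; rfl
  rw [relIndex, this, index_stabilizer, ← Set.ncard_coe_finset]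
  congr 1
  ext x
  rw [Finset.mem_coe, h]
  exact ⟨fun ⟨g, hg⟩ => ⟨g, g.2, hg⟩, fun ⟨g, hg, e⟩ => ⟨⟨g, hg⟩, e⟩⟩

theorem card_dvd_of_orbit {N : Subgroup G} {a : Ω} {S : Finset Ω}
    (h : ∀ x, x ∈ S ↔ ∃ g ∈ N, g • a = x) : S.card ∣ Nat.card N := by
  rw [← relIndex_eq_card (M := stabilizer G a) h fun _ _ => Iff.rfl]
  exact BG.relIndex_dvd_card _ _

end Cfsg.Lib.FT4
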