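import Cfsg.Agent.Lib.FT4.Ix

/-!
The Frobenius structure of the four-point stabilisers.
-/

set_option autoImplicit false

namespace Cfsg.Lib.FT4

open Subgroup MulAction Function Equiv Cfsg.Lib.BG Cfsg.Lib.Transfer Cfsg.Lib.Perm
open scoped Pointwise

variable {G Ω : Type*} [Group G] {p : ℕ}

/-- `L` is a Frobenius group with kernel `K`. -/
structure FK (L K : Subgroup G) : Prop where
  le : K ≤ L
  norm : L ≤ 𝐍(K)
  nil : Group.IsNilpotent K
  ne_bot : K ≠ ⊥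
  ne : ¬ L ≤ K
  fpf : ∀ g ∈ L, g ∉ K → K ⊓ 𝐂[g] = ⊥

theorem eq_one_of_inf {K : Subgroup G} {g x : G} (h : K ⊓ 𝐂[g] = ⊥) (hx : x ∈ K)
    (e : x * g = g * x) : x = 1 :=
  mem_bot.1 (h ▸ (⟨hx, mem_cent1.2 e⟩ : x ∈ K ⊓ 𝐂[g]))

theorem inf_bot_of {K : Subgroup G} {g : G} (h : ∀ x ∈ K, x * g = g * x → x = 1) : K ⊓ 𝐂[g] = ⊥ :=
  eq_bot_iff.2 fun x hx => mem_bot.2 (h x hx.1 (mem_cent1.1 hx.2))

theorem PE.cop {q : ℕ} (hp : p.Coprime q) {x y : G} (hx : PE p x) (hy : PE q y) :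
    (orderOf x).Coprime (orderOf y) := by
  obtain ⟨k, hk⟩ := hx
  obtain ⟨j, hj⟩ := hy
  exact ((hp.pow k j).coprime_dvd_left (orderOf_dvd_of_pow_eq_one hk)).coprime_dvd_right
    (orderOf_dvd_of_pow_eq_one hj)

namespace FK
variable [Finite G] {L K : Subgroup G}

theorem of_frob {H : Subgroup L} (h : IsFrobeniusComplement H) : ∃ K, FK L K := by
  obtain ⟨K, hn, -, h0, hs, hf⟩ := Frobenius.exists_kernel h
  have hnil : Group.IsNilpotent K := SemiReg.nil hf le_normalizer_of_normal h.1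
  refine ⟨K.map L.subtype, map_subtype_le _, le_norm_iff.2 ?_, ?_, ?_, ?_, ?_⟩
  · rintro a ha _ ⟨k, hk, rfl⟩
    exact ⟨_, hn.conj_mem k hk ⟨a, ha⟩, rfl⟩
  · exact Group.nilpotent_of_mulEquiv (K.equivMapOfInjective _ L.subtype_injective)
  · rwa [ne_eq, map_eq_bot_iff_of_injective _ L.subtype_injective]
  · intro e
    obtain ⟨x, hx, x1⟩ := exists_ne_one h.1
    obtain ⟨y, hy, e⟩ := e x.2
    obtain rfl : y = x := Subtype.ext e
    exact x1 (eq_one_of_inf (hf y hx x1) hy rfl)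
  · intro g hg hgK
    have := Frobenius.inf_centralizer_eq_bot_of_not_mem le_normalizer_of_normal hf
      (g := ⟨g, hg⟩) (hs ▸ mem_top _) fun e => hgK ⟨_, e, rfl⟩
    refine inf_bot_of ?_
    rintro _ ⟨k, hk, rfl⟩ e
    exact congrArg Subtype.val (eq_one_of_inf this hk (Subtype.ext e))

variable (h : FK L K)
include h

omit [Finite G] in
theorem mem {g x : G} (hg : g ∈ L) (hx : x ∈ K) (x1 : x ≠ 1) (e : x * g = g * x) : g ∈ K := by
  by_contra hc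
  exact x1 (eq_one_of_inf (h.fpf g hg hc) hx e)

theorem map {G' : Type*} [Group G'] (f : G →* G') (hf : ¬ K ≤ f.ker) :
    FK (L.map f) (K.map f) := by
  have key : ∀ g ∈ L, g ∉ K → ∀ k ∈ K, f k * f g = f g * f k → k ∈ f.ker := fun g hg hgK k hk e =>
    (Frobenius.mem_of_commutator_mem (N := K ⊓ f.ker) inf_le_left (norm_ker_inf f h.norm hg)
      (h.fpf g hg hgK) hk ⟨by
        rw [mul_assoc, mul_assoc, ← mul_assoc g]
        exact mul_mem hk (conj_mem_of_norm (h.norm hg) (inv_mem hk)), by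
        simp [e]⟩).2
  have hM : ∀ g ∈ L, f g ∈ K.map f → g ∈ K := by
    rintro g hg ⟨k, hk, e⟩
    by_contra hc
    refine hf fun x hx => key (k⁻¹ * g) (mul_mem (inv_mem (h.le hk)) hg)
      (fun e => hc (by simpa using mul_mem hk e)) x hx (by simp [e])
  refine ⟨map_mono h.le, map_norm f h.norm, ?_, fun e => hf ((Subgroup.map_eq_bot_iff _).1 e),
    fun e => h.ne fun g hg => hM g hg (e (mem_map_of_mem f hg)), ?_⟩
  · have := h.nil
    exact Group.nilpotent_of_surjective (f.subgroupMap K) (f.subgroupMap_surjective K)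
  · rintro _ ⟨g, hg, rfl⟩ hgK
    refine inf_bot_of ?_
    rintro _ ⟨k, hk, rfl⟩ e
    exact key g hg (fun e => hgK (mem_map_of_mem f e)) k hk e

theorem conj (c : G) : FK (c ⋆ L) (c ⋆ K) :=
  h.map _ fun e => h.ne_bot (eq_bot_iff.2 fun x hx => by simpa using e hx)

omit [Finite G] in
theorem sub {N : Subgroup G} (hN : L ≤ N) : FK (L.subgroupOf N) (K.subgroupOf N) := by
  refine ⟨fun x hx => h.le hx, le_norm_iff.2 fun a ha k hk =>
      (conj_mem_of_norm (g := (a : G)) (x := (k : G)) (h.norm ha) hk :),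
    ?_, fun e => h.ne_bot ?_, fun e => h.ne fun g hg => e (x := ⟨g, hN hg⟩) hg,
    fun g hg hgK => inf_bot_of fun x hx e => Subtype.ext
      (eq_one_of_inf (h.fpf g hg hgK) hx (congrArg Subtype.val e))⟩
  · have := h.nil
    exact Group.nilpotent_of_mulEquiv (subgroupOfEquivOfLe (h.le.trans hN)).symm
  · rwa [subgroupOf_eq_bot, disjoint_iff, inf_eq_left.2 (h.le.trans hN)] at e

theorem syl [Fact p.Prime] : ∃ S, Syl p S K ∧ L ≤ 𝐍(S) ∧ ∀ x ∈ K, PE p x → x ∈ S := by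
  obtain ⟨S, hS⟩ := Syl.exists p K
  have hn := (hS.nml_of_nil h.nil).2
  exact ⟨S, hS, h.norm.trans (hS.norm_le hn), fun x hx e => Syl.ge_of_norm_p' hS (zpowers_le.2 hx)
    e.zp (zpowers_le.2 (hn hx)) (mem_zpowers x)⟩

theorem pe_mul [Fact p.Prime] {x y : G} (hx : x ∈ K) (hy : y ∈ K) (h1 : PE p x) (h2 : PE p y) :
    PE p (x * y) :=
  let ⟨_, hS, _, e⟩ := h.syl (p := p)
  PE.of_mem hS.pgroup (mul_mem (e x hx h1) (e y hy h2))

theorem pe_in [Fact p.Prime] {x g : G} (hx : x ∈ K) (x1 : x ≠ 1) (h1 : PE p x) (hg : g ∈ L)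
    (h2 : PE p g) : g ∈ K := by
  obtain ⟨S, hS, hn, e⟩ := h.syl (p := p)
  have hz := zpowers_le.2 (hn hg)
  obtain ⟨z, hz, z1⟩ := exists_ne_one (nil_meet_center (pgroup_nil (pgroup_sup hS.pgroup h2.zp hz))
    le_sup_left (sup_le_norm_left hz) (ne_bot_of_mem (e x hx h1) x1))
  exact h.mem hg (hS.le hz.1) z1 (mem_cent.1 hz.2 g (mem_sup_right (mem_zpowers g))).symm

theorem comm {q : ℕ} (hp : p.Coprime q) {x y : G} (hx : x ∈ K) (hy : y ∈ K) (h1 : PE p x)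
    (h2 : PE q y) : x * y = y * x :=
  Frobenius.commute_of_mem_nil h.nil hx hy (h1.cop hp h2)

theorem exists_out : ∃ g ∈ L, g ∉ K ∧ ∃ r : ℕ, r.Prime ∧ g ^ r = 1 := by
  obtain ⟨g, hg, hgK⟩ := SetLike.not_le_iff_exists.1 h.ne
  obtain ⟨k, hk⟩ := Frobenius.exists_zpow_prime (x := g) (fun e => hgK (e ▸ one_mem K))
  refine ⟨g ^ k, pow_mem hg k, fun e => hgK (h.mem hg e (fun e => ?_) ?_), _, hk,
    pow_orderOf_eq_one _⟩
  · rw [e, orderOf_one] at hk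
    exact Nat.not_prime_one hk
  · rw [← pow_succ, pow_succ']

theorem cyc [Fact p.Prime] (hp : p ≠ 2) {g : G} (hg : g ∈ L) (hgK : g ∉ K) (h1 : PE p g)
    {S : Subgroup G} (hS : IsPGroup p S) (hL : S ≤ L) : IsCyclic S :=
  (Frobenius.cyclic_or_quaternion_of_semiReg h.ne_bot (hL.trans h.norm) (fun x hx x1 =>
    h.fpf x (hL hx) fun e => hgK (h.pe_in e x1 (PE.of_mem hS hx) hg h1)) hS).resolve_right
    fun e => hp e.1

theorem six_le : 6 ≤ Nat.card L := by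
  obtain ⟨g, hg, hgK, -⟩ := h.exists_out
  obtain ⟨x, hx, x1⟩ := exists_ne_one h.ne_bot
  have hy := conj_mem_of_norm (h.norm hg) hx
  have h3 : 2 < Nat.card K := by
    classical
    have := Fintype.ofFinite K
    rw [Nat.card_eq_fintype_card]
    refine Fintype.two_lt_card_iff.2 ⟨1, ⟨x, hx⟩, ⟨_, hy⟩, fun e => x1 (congrArg Subtype.val e).symm,
      fun e => x1 ?_, fun e => hgK (h.mem hg hx x1 ?_)⟩
    · simpa using (congrArg Subtype.val e).symm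
    · exact eq_mul_inv_iff_mul_eq.1 (congrArg Subtype.val e)
  have h2 := BG.card_mul_relIndex h.le
  have h4 : K.relIndex L ≠ 1 := fun e => h.ne (relIndex_eq_one.1 e)
  have h5 : K.relIndex L ≠ 0 := index_ne_zero_of_finite
  have h6 : 2 ≤ K.relIndex L := by omega
  nlinarith

end FK

variable [MulAction G Ω]

variable (G) in
/-- The subgroup generated by the `p`-elements fixing `B` pointwise. -/
def Pp (p : ℕ) (B : Finset Ω) : Subgroup G := closure {g | g ∈ Lx G B ∧ PE p g}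

variable (G) in
/-- The `p`-elements fixing `B` form a subgroup. -/
def Cl (p : ℕ) (B : Finset Ω) : Prop :=
  ∀ x ∈ Lx G B, ∀ y ∈ Lx G B, PE p x → PE p y → PE p (x * y)

variable {B : Finset Ω} {g : G}

theorem Pp_le : Pp G p B ≤ Lx G B := (closure_le _).2 fun _ h => h.1

theorem mem_Pp_of (h1 : g ∈ Lx G B) (h2 : PE p g) : g ∈ Pp G p B := subset_closure ⟨h1, h2⟩

theorem le_Pp {Q : Subgroup G} (h1 : Q ≤ Lx G B) (h2 : IsPGroup p Q) : Q ≤ Pp G p B :=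
  fun _ hg => mem_Pp_of (h1 hg) (PE.of_mem h2 hg)

theorem Cl.pe (h : Cl G p B) (hg : g ∈ Pp G p B) : PE p g := by
  induction hg using closure_induction with
  | mem x hx => exact hx.2
  | one => exact PE.one
  | mul x y hx hy a b => exact h x (Pp_le hx) y (Pp_le hy) a b
  | inv x _ a => exact a.inv

theorem Cl.pg (h : Cl G p B) : IsPGroup p (Pp G p B) := pgroup_of_pe fun _ => h.pe

theorem Cl.syl [Finite G] [Fact p.Prime] (h : Cl G p B) : Syl p (Pp G p B) (Lx G B) :=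
  Syl.of_max Pp_le h.pg fun _ h1 _ h2 => le_Pp h2 h1

theorem Pp_anti {C : Finset Ω} (h : B ⊆ C) : Pp G p C ≤ Pp G p B :=
  closure_mono fun _ hg => ⟨Lx_anti h hg.1, hg.2⟩

section
variable [DecidableEq Ω]

theorem conj_mem_Pp (hg : g ∈ Pp G p B) (c : G) : c * g * c⁻¹ ∈ Pp G p (c • B) := by
  have : c ⋆ Pp G p B ≤ Pp G p (c • B) := by
    rw [Pp, MonoidHom.map_closure]
    refine closure_mono ?_
    rintro _ ⟨x, hx, rfl⟩
    exact ⟨conj_mem_Lx hx.1 c, hx.2.conj c⟩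
  exact conj_le_iff.1 this g hg

theorem conj_Pp (B : Finset Ω) (c : G) : c ⋆ Pp G p B = Pp G p (c • B) := by
  refine le_antisymm (conj_le_iff.2 fun g hg => conj_mem_Pp hg c) fun g hg => mem_conj.2 ?_
  simpa using conj_mem_Pp hg c⁻¹

theorem norm_Pp {c : G} (h : ∀ x ∈ B, c • x ∈ B) : c ∈ 𝐍(Pp G p B) :=
  norm_of_conj_eq (by rw [conj_Pp, smul_eq_of_maps h])

theorem Lx_norm_Pp : Lx G B ≤ 𝐍(Pp G p B) := fun _ hg =>
  norm_Pp fun x hx => (mem_Lx.1 hg x hx).symm ▸ hx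

theorem Cl.conj (h : Cl G p B) (c : G) : Cl G p (c • B) := fun x hx y hy a b => by
  have := (h _ (by simpa using conj_mem_Lx hx c⁻¹) _ (by simpa using conj_mem_Lx hy c⁻¹)
    (a.conj' c) (b.conj' c)).conj c
  rwa [show c * (c⁻¹ * x * c * (c⁻¹ * y * c)) * c⁻¹ = x * y by group] at this

end

/-- `g` fixes `B` and acts fixed-point-freely on the Sylow 2-subgroup. -/
structure Out (B : Finset Ω) (g : G) : Prop where
  mem : g ∈ Lx G B
  fpf : Pp G 2 B ⊓ 𝐂[g] = ⊥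

theorem Out.eq_one (h : Out B g) {x : G} (hx : x ∈ Pp G 2 B) (e : x * g = g * x) : x = 1 :=
  eq_one_of_inf h.fpf hx e

theorem Out.conj [DecidableEq Ω] (h : Out B g) (c : G) : Out (c • B) (c * g * c⁻¹) :=
  ⟨conj_mem_Lx h.mem c, by rw [← conj_Pp, ← conj_cent1, ← conj_inf, h.fpf, conj_eq_bot_iff]⟩

theorem Out.mem_of_comm [Finite G] (h : Out B g) {Q : Subgroup G} (hQ : Q ≤ Pp G 2 B)
    (hn : g ∈ 𝐍(Q)) {x : G} (hx : x ∈ Pp G 2 B) (e : x * g * x⁻¹ * g⁻¹ ∈ Q) : x ∈ Q :=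
  Frobenius.mem_of_commutator_mem hQ hn h.fpf hx e

variable (G Ω) in
/-- The hypothesis of the theorem. -/
structure Hyp : Prop where
  tr : IsMultiplyPretransitive G Ω 4
  fk : ∀ B : Finset Ω, B.card = 4 → ∃ K, FK (Lx G B) K

variable (G Ω) in
/-- The case of a Frobenius kernel of even order. -/
structure C2 : Prop where
  tr : IsMultiplyPretransitive G Ω 4
  fk : ∀ B : Finset Ω, B.card = 4 → ∃ K, FK (Lx G B) K ∧ ∃ x ∈ K, x ≠ 1 ∧ PE 2 x

namespace C2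
variable [Finite G] [DecidableEq Ω] (H : C2 G Ω) (hB : B.card = 4)
include H hB

theorem ex : ∃ K, FK (Lx G B) K ∧ Pp G 2 B ≠ ⊥ ∧ Cl G 2 B ∧ Pp G 2 B ≤ K ∧
    ∀ g ∈ Lx G B, (Out B g ↔ g ∉ K) := by
  obtain ⟨K, h, x, hx, x1, x2⟩ := H.fk B hB
  have h1 : ∀ g ∈ Lx G B, PE 2 g → g ∈ K := fun g hg e => h.pe_in hx x1 x2 hg e
  have h2 : Pp G 2 B ≤ K := (closure_le _).2 fun g hg => h1 g hg.1 hg.2
  have h3 := ne_bot_of_mem (mem_Pp_of (h.le hx) x2) x1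
  refine ⟨K, h, h3, fun a ha b hb e f => h.pe_mul (h1 a ha e) (h1 b hb f) e f, h2, fun g hg =>
    ⟨fun e hc => ?_, fun e => ⟨hg, eq_bot_mono (h.fpf g hg e) (inf_le_inf_right _ h2)⟩⟩⟩
  obtain ⟨z, hz, z1⟩ := exists_ne_one (nil_meet_center h.nil h2 (h.le.trans Lx_norm_Pp) h3)
  exact z1 (e.eq_one hz.1 (mem_cent.1 hz.2 g hc).symm)

theorem cl : Cl G 2 B := let ⟨_, _, _, h, _⟩ := H.ex hB; h

theorem ne_bot : Pp G 2 B ≠ ⊥ := let ⟨_, _, h, _⟩ := H.ex hB; h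

theorem pe (hg : g ∈ Pp G 2 B) : PE 2 g := (H.cl hB).pe hg

theorem pg : IsPGroup 2 (Pp G 2 B) := (H.cl hB).pg

theorem exists_out : ∃ g : G, Out B g ∧ g ≠ 1 ∧ ∃ r : ℕ, r.Prime ∧ r ≠ 2 ∧ g ^ r = 1 := by
  obtain ⟨K, h, -, -, h2, h3⟩ := H.ex hB
  obtain ⟨g, hg, hgK, r, hr, e⟩ := h.exists_out
  refine ⟨g, (h3 g hg).2 hgK, fun e => hgK (e ▸ one_mem K), r, hr, ?_, e⟩
  rintro rfl
  exact hgK (h2 (mem_Pp_of hg (PE.of_pow e)))

theorem cent {q : ℕ} (hq : q.Coprime 2) (hg : g ∈ Lx G B) (h1 : ¬ Out B g) (h2 : PE q g) :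
    g ∈ 𝐂(Pp G 2 B) := by
  obtain ⟨K, h, -, h0, h4, h3⟩ := H.ex hB
  have : g ∈ K := by_contra fun e => h1 ((h3 g hg).2 e)
  exact mem_cent.2 fun x hx => (h.comm hq this (h4 hx) h2 (h0.pe hx)).symm

theorem out_of [Fact p.Prime] {a : G} (ha : Out B a) (h1 : PE p a) (hg : g ∈ Lx G B) (g1 : g ≠ 1)
    (h2 : PE p g) : Out B g := by
  obtain ⟨K, h, -, -, -, h3⟩ := H.ex hB
  exact (h3 g hg).2 fun e => (h3 a ha.mem).1 ha (h.pe_in e g1 h2 ha.mem h1)

theorem out_pow (ha : Out B g) {m : ℕ} (h1 : g ^ m ≠ 1) : Out B (g ^ m) := by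
  obtain ⟨K, h, -, -, -, h3⟩ := H.ex hB
  exact (h3 _ (pow_mem ha.mem m)).2 fun e => (h3 g ha.mem).1 ha
    (h.mem ha.mem e h1 (by rw [← pow_succ, pow_succ']))

theorem cyc [Fact p.Prime] (hp : p ≠ 2) (ha : Out B g) (h1 : PE p g) {S : Subgroup G}
    (hS : IsPGroup p S) (hL : S ≤ Lx G B) : IsCyclic S := by
  obtain ⟨K, h, -, -, -, h3⟩ := H.ex hB
  exact h.cyc hp ha.mem ((h3 g ha.mem).1 ha) h1 hS hL

theorem cl_of [Fact p.Prime] (h0 : ∀ g : G, Out B g → ¬ PE p g) : Cl G p B := by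
  obtain ⟨K, h, -, -, -, h3⟩ := H.ex hB
  have : ∀ g ∈ Lx G B, PE p g → g ∈ K := fun g hg e => by_contra fun hc => h0 g ((h3 g hg).2 hc) e
  exact fun a ha b hb e f => h.pe_mul (this a ha e) (this b hb f) e f

theorem out_ne (ha : Out B g) : g ≠ 1 := by
  rintro rfl
  obtain ⟨x, hx, x1⟩ := exists_ne_one (H.ne_bot hB)
  exact x1 (ha.eq_one hx (by simp))

end C2

end Cfsg.Lib.FT4
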