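import Cfsg.Agent.Lib.FT4.Bas
import Cfsg.Agent.S4221
import Cfsg.Agent.S0711
import Cfsg.Agent.S0743

/-!
Induced permutation groups, transitivity on subsets, the Frobenius structure.
-/

set_option autoImplicit false

namespace Cfsg.Lib.FT4

open Subgroup MulAction Function Equiv Cfsg.Lib.BG Cfsg.Lib.Transfer Cfsg.Lib.Perm
open scoped Pointwise

variable {G Ω : Type*} [Group G] [MulAction G Ω] {p : ℕ}

/-- `N` maps `Γ` into itself. -/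
def Mp (N : Subgroup G) (Γ : Finset Ω) : Prop := ∀ g ∈ N, ∀ x ∈ Γ, g • x ∈ Γ

/-- `N` is `k`-transitive on `Γ`. -/
def Tr (N : Subgroup G) (Γ : Finset Ω) (k : ℕ) : Prop :=
  ∀ x y : Fin k → Ω, Injective x → Injective y → (∀ i, x i ∈ Γ) → (∀ i, y i ∈ Γ) →
    ∃ g ∈ N, ∀ i, g • x i = y i

/-- The permutation group induced by `N` on `Γ`. -/
abbrev Ix (N : Subgroup G) (Γ : Finset Ω) : Subgroup (Perm Γ) := Ind N (Subtype.val : Γ → Ω)

variable {N : Subgroup G} {Γ : Finset Ω}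

theorem mem_Ix {σ : Perm Γ} : σ ∈ Ix N Γ ↔ ∃ g ∈ N, ∀ x : Γ, g • (x : Ω) = σ x :=
  ⟨fun ⟨g, hg⟩ => ⟨g, g.2, hg⟩, fun ⟨g, hg, h⟩ => ⟨⟨g, hg⟩, h⟩⟩

theorem Mp.fx [Fintype Ω] (Q : Subgroup G) : Mp 𝐍(Q) (Fx Ω Q) := fun _ hg _ hx => Fx_norm hg hx

theorem Mp.mono (h : Mp N Γ) {M : Subgroup G} (hM : M ≤ N) : Mp M Γ := fun g hg => h g (hM hg)

theorem Mp.compl [Fintype Ω] [DecidableEq Ω] (T : Finset Ω) : Mp (Lx G T) Tᶜ := fun _ hg _ hx =>
  Finset.mem_compl.2 (maps_not (fun y hy => (mem_Lx.1 hg y hy).symm ▸ hy) (Finset.mem_compl.1 hx))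

/-- Restriction to an invariant set. -/
def res (h : Mp N Γ) : N →* Ix N Γ where
  toFun g := ⟨⟨fun x => ⟨(g : G) • (x : Ω), h g g.2 x x.2⟩,
    fun x => ⟨(g : G)⁻¹ • (x : Ω), h _ (inv_mem g.2) x x.2⟩,
    fun _ => Subtype.ext (inv_smul_smul _ _), fun _ => Subtype.ext (smul_inv_smul _ _)⟩,
    g, fun _ => rfl⟩
  map_one' := Subtype.ext (Equiv.ext fun x => Subtype.ext (one_smul G (x : Ω)))
  map_mul' a b := Subtype.ext (Equiv.ext fun x => Subtype.ext (mul_smul (a : G) (b : G) (x : Ω)))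

theorem res_smul (h : Mp N Γ) (g : N) (x : Γ) : ((res h g • x : Γ) : Ω) = (g : G) • (x : Ω) := rfl

theorem res_surj (h : Mp N Γ) : Surjective (res h) := by
  rintro ⟨σ, g, hg⟩
  exact ⟨g, Subtype.ext (Equiv.ext fun x => Subtype.ext (hg x))⟩

theorem res_eq_iff (h : Mp N Γ) {a b : N} : res h a = res h b ↔ ∀ x ∈ Γ, (a : G) • x = (b : G) • x :=
  ⟨fun e x hx => by rw [← res_smul h a ⟨x, hx⟩, e]; rfl,
    fun e => Subtype.ext (Equiv.ext fun x => Subtype.ext (e x x.2))⟩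

theorem res_eq_one (h : Mp N Γ) {a : N} : res h a = 1 ↔ (a : G) ∈ Lx G Γ := by
  rw [← map_one (res h), res_eq_iff, mem_Lx]; simp

theorem res_fix (h : Mp N Γ) {a : N} {x : Γ} : res h a • x = x ↔ (a : G) • (x : Ω) = x :=
  ⟨fun e => congrArg Subtype.val e, fun e => Subtype.ext e⟩

theorem Tr.ix (h : Mp N Γ) {k : ℕ} : Tr N Γ k ↔ IsMultiplyPretransitive (Ix N Γ) Γ k := by
  rw [mt_iff]
  refine ⟨fun H x y hx hy => ?_, fun H x y hx hy h1 h2 => ?_⟩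
  · obtain ⟨g, hg, e⟩ := H (fun i => x i) (fun i => y i) (Subtype.val_injective.comp hx)
      (Subtype.val_injective.comp hy) (fun i => (x i).2) fun i => (y i).2
    exact ⟨res h ⟨g, hg⟩, fun i => Subtype.ext (e i)⟩
  · obtain ⟨σ, e⟩ := H (fun i => ⟨x i, h1 i⟩) (fun i => ⟨y i, h2 i⟩)
      (fun i j e => hx (congrArg Subtype.val e)) fun i j e => hy (congrArg Subtype.val e)
    obtain ⟨g, rfl⟩ := res_surj h σ
    exact ⟨g, g.2, fun i => congrArg Subtype.val (e i)⟩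

theorem Tr.mono {k : ℕ} (h : Tr N Γ k) {M : Subgroup G} (hM : N ≤ M) : Tr M Γ k :=
  fun x y h1 h2 h3 h4 => let ⟨g, hg, e⟩ := h x y h1 h2 h3 h4; ⟨g, hM hg, e⟩

theorem Tr.le (hm : Mp N Γ) {k j : ℕ} (h : Tr N Γ k) (hj : j ≤ k) (hk : k ≤ Γ.card) : Tr N Γ j :=
  (Tr.ix hm).2 (by
    have := (Tr.ix hm).1 h
    exact isMultiplyPretransitive_of_le hj (by simpa using hk))

theorem Tr.one (h : Tr N Γ 1) {a b : Ω} (ha : a ∈ Γ) (hb : b ∈ Γ) : ∃ g ∈ N, g • a = b :=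
  let ⟨g, hg, e⟩ := h ![a] ![b] (injective_of_subsingleton _) (injective_of_subsingleton _)
    (by simpa using ha) (by simpa using hb)
  ⟨g, hg, e 0⟩

theorem Tr.two (h : Tr N Γ 2) {a b a' b' : Ω} (h1 : a ≠ b) (h2 : a' ≠ b') (ha : a ∈ Γ) (hb : b ∈ Γ)
    (ha' : a' ∈ Γ) (hb' : b' ∈ Γ) : ∃ g ∈ N, g • a = a' ∧ g • b = b' :=
  let ⟨g, hg, e⟩ := h ![a, b] ![a', b'] (inj2 h1) (inj2 h2)
    (by simp [Fin.forall_fin_succ, *]) (by simp [Fin.forall_fin_succ, *])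
  ⟨g, hg, e 0, e 1⟩

theorem Tr.three (h : Tr N Γ 3) {a b c a' b' c' : Ω} (h1 : a ≠ b) (h2 : a ≠ c) (h3 : b ≠ c)
    (k1 : a' ≠ b') (k2 : a' ≠ c') (k3 : b' ≠ c') (ha : a ∈ Γ) (hb : b ∈ Γ) (hc : c ∈ Γ)
    (ha' : a' ∈ Γ) (hb' : b' ∈ Γ) (hc' : c' ∈ Γ) :
    ∃ g ∈ N, g • a = a' ∧ g • b = b' ∧ g • c = c' :=
  let ⟨g, hg, e⟩ := h ![a, b, c] ![a', b', c'] (inj3 h1 h2 h3) (inj3 k1 k2 k3)
    (by simp [Fin.forall_fin_succ, *]) (by simp [Fin.forall_fin_succ, *])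
  ⟨g, hg, e 0, e 1, e 2⟩

/-- Four distinct points. -/
structure D4 (a b c d : Ω) : Prop where
  ab : a ≠ b
  ac : a ≠ c
  ad : a ≠ d
  bc : b ≠ c
  bd : b ≠ d
  cd : c ≠ d

theorem D4.inj {a b c d : Ω} (h : D4 a b c d) : Injective ![a, b, c, d] :=
  inj4 h.ab h.ac h.ad h.bc h.bd h.cd

theorem D4.card [DecidableEq Ω] {a b c d : Ω} (h : D4 a b c d) : ({a, b, c, d} : Finset Ω).card = 4 :=
  Finset.card_eq_four.2 ⟨a, b, c, d, h.ab, h.ac, h.ad, h.bc, h.bd, h.cd, rfl⟩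

theorem exists_D4 [DecidableEq Ω] {B : Finset Ω} (h : B.card = 4) :
    ∃ a b c d, D4 a b c d ∧ B = {a, b, c, d} :=
  let ⟨a, b, c, d, h1, h2, h3, h4, h5, h6, e⟩ := Finset.card_eq_four.1 h
  ⟨a, b, c, d, ⟨h1, h2, h3, h4, h5, h6⟩, e⟩

theorem D4.smul {a b c d : Ω} (h : D4 a b c d) (g : G) : D4 (g • a) (g • b) (g • c) (g • d) :=
  have n : ∀ {x y : Ω}, x ≠ y → g • x ≠ g • y := fun h e => h (smul_left_cancel g e)
  ⟨n h.ab, n h.ac, n h.ad, n h.bc, n h.bd, n h.cd⟩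

theorem Tr.four (h : Tr N Γ 4) {a b c d a' b' c' d' : Ω} (h1 : D4 a b c d) (h2 : D4 a' b' c' d')
    (ha : a ∈ Γ) (hb : b ∈ Γ) (hc : c ∈ Γ) (hd : d ∈ Γ)
    (ha' : a' ∈ Γ) (hb' : b' ∈ Γ) (hc' : c' ∈ Γ) (hd' : d' ∈ Γ) :
    ∃ g ∈ N, g • a = a' ∧ g • b = b' ∧ g • c = c' ∧ g • d = d' :=
  let ⟨g, hg, e⟩ := h ![a, b, c, d] ![a', b', c', d'] h1.inj h2.inj
    (by simp [Fin.forall_fin_succ, *]) (by simp [Fin.forall_fin_succ, *])
  ⟨g, hg, e 0, e 1, e 2, e 3⟩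

theorem mt4 (h : IsMultiplyPretransitive G Ω 4) {a b c d a' b' c' d' : Ω} (h1 : D4 a b c d)
    (h2 : D4 a' b' c' d') : ∃ g : G, g • a = a' ∧ g • b = b' ∧ g • c = c' ∧ g • d = d' :=
  four_iff.1 h a b c d a' b' c' d' h1.ab h1.ac h1.ad h1.bc h1.bd h1.cd h2.ab h2.ac h2.ad h2.bc
    h2.bd h2.cd

theorem Tr.set [DecidableEq Ω] {k : ℕ} (h : Tr N Γ k) {B C : Finset Ω} (hB : B.card = k)
    (hC : C.card = k) (h1 : B ⊆ Γ) (h2 : C ⊆ Γ) : ∃ g ∈ N, g • B = C := by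
  obtain ⟨x, hx, x1, x2⟩ := exists_enum B hB
  obtain ⟨y, hy, y1, -⟩ := exists_enum C hC
  obtain ⟨g, hg, e⟩ := h x y hx hy (fun i => h1 (x1 i)) fun i => h2 (y1 i)
  refine ⟨g, hg, Finset.eq_of_subset_of_card_le (fun z hz => ?_) (by
    rw [Finset.card_smul_finset, hB, hC])⟩
  obtain ⟨w, hw, rfl⟩ := Finset.mem_smul_finset.1 hz
  obtain ⟨i, rfl⟩ := x2 w hw
  exact (e i).symm ▸ y1 i

/-- It suffices to reach every tuple from a fixed one. -/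
theorem Tr.of_base {k : ℕ} (b : Fin k → Ω)
    (h : ∀ y : Fin k → Ω, Injective y → (∀ i, y i ∈ Γ) → ∃ g ∈ N, ∀ i, g • b i = y i) :
    Tr N Γ k := fun x y hx hy h1 h2 => by
  obtain ⟨g, hg, e⟩ := h x hx h1
  obtain ⟨g', hg', e'⟩ := h y hy h2
  exact ⟨g' * g⁻¹, mul_mem hg' (inv_mem hg), fun i => by rw [mul_smul, ← e, inv_smul_smul, e']⟩

theorem tr_fix [Fintype Ω] [DecidableEq Ω] {m k : ℕ} (h : IsMultiplyPretransitive G Ω m)
    (hm : m ≤ Fintype.card Ω) (T : Finset Ω) (hk : T.card + k ≤ m) : Tr (Lx G T) Tᶜ k := by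
  intro x y hx hy h1 h2
  have inj : ∀ x : Fin k → Ω, Injective x → (∀ i, x i ∈ Tᶜ) →
      Injective (Sum.elim (Subtype.val : T → Ω) x) := fun x hx h1 =>
    Subtype.val_injective.sumElim hx fun a i e => Finset.mem_compl.1 (h1 i) (e ▸ a.2)
  obtain ⟨g, hg⟩ := exists_smul_eq_of_card_le h (by rwa [Nat.card_eq_fintype_card])
    (ι := T ⊕ Fin k) (by simpa using hk) _ _ (inj x hx h1) (inj y hy h2)
  exact ⟨g, mem_Lx.2 fun z hz => hg (Sum.inl ⟨z, hz⟩), fun i => hg (Sum.inr i)⟩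

theorem Ind_id (W : Subgroup (Perm Ω)) : Ind W (id : Ω → Ω) = W := by
  ext σ
  refine ⟨fun ⟨g, hg⟩ => ?_, fun h => ⟨⟨σ, h⟩, fun _ => rfl⟩⟩
  rw [show σ = g from Equiv.ext fun x => (hg x).symm]
  exact g.2

variable (G Ω) in
/-- A faithful group is isomorphic to its image. -/
noncomputable def indEquiv [FaithfulSMul G Ω] : G ≃* Ind G (id : Ω → Ω) :=
  MulEquiv.ofBijective ((toPermHom G Ω).codRestrict (Ind G (id : Ω → Ω)) fun g =>
    mem_ind.2 ⟨g, fun _ => rfl⟩)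
    ⟨fun _ _ e => toPerm_injective (congrArg Subtype.val e), by
      rintro ⟨σ, g, hg⟩
      exact ⟨g, Subtype.ext (Equiv.ext hg)⟩⟩

theorem indEquiv_smul [FaithfulSMul G Ω] (g : G) (x : Ω) : indEquiv G Ω g • x = g • x := rfl

theorem ind_mt [FaithfulSMul G Ω] {k : ℕ} (h : IsMultiplyPretransitive G Ω k) :
    IsMultiplyPretransitive (Ind G (id : Ω → Ω)) Ω k :=
  mt_iff.2 fun x y hx hy => let ⟨g, hg⟩ := mt_iff.1 h x y hx hy; ⟨indEquiv G Ω g, hg⟩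

theorem eq_one_of_fix [FaithfulSMul G Ω] {g : G} (h : ∀ x : Ω, g • x = x) : g = 1 :=
  eq_of_smul_eq_smul (α := Ω) fun x => by rw [h, one_smul]

theorem exists_move [FaithfulSMul G Ω] {g : G} (h : g ≠ 1) : ∃ x : Ω, g • x ≠ x := by
  by_contra hc
  push Not at hc
  exact h (eq_one_of_fix hc)

section
variable [Fintype Ω] [DecidableEq Ω]

/-- Small supports force the alternating group. -/
theorem alt_of_supp [FaithfulSMul G Ω] (h : IsMultiplyPretransitive G Ω 4)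
    (h4 : 4 ≤ Fintype.card Ω) {g : G} (h1 : g ≠ 1) {S : Finset Ω} (hS : S.card < 6)
    (hg : ∀ x, x ∉ S → g • x = x) : alternatingGroup Ω ≤ Ind G (id : Ω → Ω) := by
  refine (Agent.S0711.result _ (k := 4) (by norm_num) h4 (ind_mt h) (indEquiv G Ω g).1
    (indEquiv G Ω g).2 (fun e => h1 ((indEquiv G Ω).map_eq_one_iff.1 (Subtype.ext e))) ?_).2
  refine lt_of_le_of_lt (Finset.card_le_card fun x hx => ?_) hS
  by_contra hc
  exact Perm.mem_support.1 hx (hg x hc)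

theorem odd4' (W : Subgroup (Perm Ω)) (h : IsMultiplyPretransitive W Ω 4) {B : Finset Ω}
    (hB : B.card = 4) (ho : ∀ g ∈ Lx W B, g * g = 1 → g = 1) :
    ((Fintype.card Ω = 4 ∨ Fintype.card Ω = 5) ∧ W = ⊤) ∨
      ((Fintype.card Ω = 6 ∨ Fintype.card Ω = 7) ∧ W = alternatingGroup Ω) ∨
      (Fintype.card Ω = 11 ∧ Lx W B = ⊥) := by
  obtain ⟨x, hx, x1, x2⟩ := exists_enum B hB
  have := Agent.S4221.result W h ⟨x, hx⟩ (by
    rw [← Nat.not_even_iff_odd, even_iff_two_dvd]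
    intro h2
    obtain ⟨t, ht⟩ := exists_prime_orderOf_dvd_card' 2 h2
    have e : (t : W) = 1 := ho t (mem_Lx.2 fun z hz => by
      obtain ⟨i, rfl⟩ := x2 z hz
      exact DFunLike.congr_fun t.2 i) (by
        have := pow_orderOf_eq_one t
        rw [ht, pow_two] at this
        exact congrArg Subtype.val this)
    rw [show t = 1 from Subtype.ext e] at ht
    simp at ht)
  refine this.imp_right (Or.imp_right fun h11 => ⟨h11.1, ?_⟩)
  have e := card_eq_descFactorial_mul h B hB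
  rw [h11.2, Nat.card_eq_fintype_card (α := Ω), h11.1] at e
  norm_num [Nat.descFactorial] at e
  exact e

omit [Fintype Ω] in
/-- Gleason's lemma. -/
theorem gleason [Finite G] (hm : Mp N Γ) (h5 : 4 < Γ.card)
    (h : ∀ B ⊆ Γ, B.card = 4 → ∃ g ∈ N, PE 2 g ∧ ∀ x ∈ Γ, g • x = x ↔ x ∈ B) : Tr N Γ 4 := by
  refine (Tr.ix hm).2 (Agent.S0743.result _ Nat.prime_two (by norm_num) (by simpa using h5)
    fun s hs => ?_)
  obtain ⟨g, hg, h1, h2⟩ := h (s.map (Embedding.subtype _)) (fun x hx => by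
    obtain ⟨y, -, rfl⟩ := Finset.mem_map.1 hx
    exact y.2) (by simpa using hs)
  have h3 : PE 2 (⟨g, hg⟩ : N) := let ⟨k, hk⟩ := h1; ⟨k, Subtype.ext (by simpa using hk)⟩
  refine ⟨zpowers (res hm ⟨g, hg⟩), (h3.map _).zp, Set.ext fun x => ?_⟩
  have e : res hm ⟨g, hg⟩ • x = x ↔ x ∈ s := by
    rw [res_fix, h2 _ x.2]
    exact Finset.mem_map' _
  rw [Finset.mem_coe, ← e]
  exact ⟨fun h => h ⟨_, mem_zpowers _⟩, fun h u => zp_fix (u := (u : Ix N Γ)) h u.2⟩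

end

theorem PE.sub {g : G} (hg : PE p g) (h : g ∈ N) : PE p (⟨g, h⟩ : N) :=
  let ⟨k, hk⟩ := hg
  ⟨k, Subtype.ext (by simpa using hk)⟩

theorem PE.res (hm : Mp N Γ) {g : G} (hg : PE p g) (h : g ∈ N) : PE p (res hm ⟨g, h⟩) :=
  (hg.sub h).map _

/-- Lifting `p`-elements of the induced group. -/
theorem res_lift [Finite G] (hp : p.Prime) (hm : Mp N Γ) {σ : Ix N Γ} (h : PE p σ) :
    ∃ g : N, PE p (g : G) ∧ res hm g = σ := by
  obtain ⟨g, rfl⟩ := res_surj hm σ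
  obtain ⟨m, h1, h2⟩ := lift hp g
  obtain ⟨k, hk⟩ := h
  have := h2 (res hm).ker k (by rwa [MonoidHom.mem_ker, map_pow])
  rw [MonoidHom.mem_ker, map_mul, map_inv, inv_mul_eq_one] at this
  exact ⟨g ^ m, h1.map N.subtype, this.symm⟩

/-- The image of a finite set in the subtype. -/
theorem mem_Lx_res (hm : Mp N Γ) {s : Finset Γ} {g : N} :
    res hm g ∈ Lx (Ix N Γ) s ↔ (g : G) ∈ Lx G (s.map (Embedding.subtype _)) := by
  simp only [mem_Lx, res_fix, Finset.mem_map, Embedding.coe_subtype]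
  exact ⟨by rintro h _ ⟨y, hy, rfl⟩; exact h y hy, fun h x hx => h x ⟨x, hx, rfl⟩⟩

theorem map_sub (s : Finset Γ) : s.map (Embedding.subtype _) ⊆ Γ := fun x hx => by
  obtain ⟨y, -, rfl⟩ := Finset.mem_map.1 hx
  exact y.2

theorem exists_sub {B : Finset Ω} (h : B ⊆ Γ) :
    ∃ s : Finset Γ, s.map (Embedding.subtype _) = B ∧ s.card = B.card ∧
      ∀ x : Γ, x ∈ s ↔ (x : Ω) ∈ B := by
  classical
  have e := Finset.subtype_map_of_mem (p := fun x => x ∈ Γ) (s := B) h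
  exact ⟨B.subtype _, e, by rw [← Finset.card_map (Embedding.subtype _), e],
    fun x => Finset.mem_subtype⟩

end Cfsg.Lib.FT4
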